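import Mathlib
import Cfsg.Agent.Lib.Involution.BaerSuzuki

/-!
A finite group of automorphisms of a 2-torsion abelian group all of whose 2-subgroups act quadratically,
without nontrivial normal 2-subgroups and with an offender, contains two involutions whose product has
order divisible by 3.
-/

set_option autoImplicit false


open scoped Pointwise

namespace Cfsg.Agent.Lib.QuadraticTwo

universe u

variable {V : Type u} [AddCommGroup V]

abbrev AutE (V : Type u) [AddCommGroup V] := (AddMonoid.End V)ˣ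

/-- The displacement `g v + v`. -/
def disp (g : AutE V) (v : V) : V := (g : AddMonoid.End V) v + v

/-- Every 2-subgroup acts quadratically. -/
def IsQuad (G : Subgroup (AutE V)) : Prop :=
  ∀ T : Subgroup (AutE V), T ≤ G → IsPGroup 2 T → ∀ s ∈ T, ∀ t ∈ T, ∀ v : V, disp s (disp t v) = 0

/-- No nontrivial normal 2-subgroup. -/
def NoTwo (G : Subgroup (AutE V)) : Prop :=
  ∀ R : Subgroup (AutE V), R ≤ G → (∀ g ∈ G, ∀ r ∈ R, g * r * g⁻¹ ∈ R) → IsPGroup 2 R → R = ⊥

/-- The fixed points of a subgroup. -/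
def fixS (A : Subgroup (AutE V)) : AddSubgroup V where
  carrier := {v | ∀ a ∈ A, (a : AddMonoid.End V) v = v}
  add_mem' := fun hx hy a ha => by rw [map_add, hx a ha, hy a ha]
  zero_mem' := fun a _ => map_zero _
  neg_mem' := fun hx a ha => by rw [map_neg, hx a ha]

/-- An offender. -/
def HasOffender (G : Subgroup (AutE V)) : Prop :=
  ∃ A : Subgroup (AutE V), A ≤ G ∧ IsPGroup 2 A ∧ A ≠ ⊥ ∧ Nat.card V ≤ Nat.card A * Nat.card (fixS A)

/-- Two involutions whose product has order divisible by 3. -/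
def HasThree (G : Subgroup (AutE V)) : Prop :=
  ∃ a ∈ G, ∃ b ∈ G, a * a = 1 ∧ b * b = 1 ∧ 3 ∣ orderOf (a * b)

variable (h2 : ∀ v : V, v + v = 0)

theorem apply_mul (g h : AutE V) (v : V) :
    ((g * h : AutE V) : AddMonoid.End V) v = (g : AddMonoid.End V) ((h : AddMonoid.End V) v) := by
  rw [Units.val_mul]; rfl

theorem apply_one (v : V) : ((1 : AutE V) : AddMonoid.End V) v = v := by
  rw [Units.val_one]; rfl

theorem ext_apply {g h : AutE V} (e : ∀ v : V, (g : AddMonoid.End V) v = (h : AddMonoid.End V) v) : g = h :=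
  Units.ext (AddMonoidHom.ext e)

theorem inv_apply (g : AutE V) (v : V) : ((g⁻¹ : AutE V) : AddMonoid.End V) ((g : AddMonoid.End V) v) = v := by
  rw [← apply_mul, inv_mul_cancel, apply_one]

theorem apply_inv (g : AutE V) (v : V) : (g : AddMonoid.End V) (((g⁻¹ : AutE V) : AddMonoid.End V) v) = v := by
  rw [← apply_mul, mul_inv_cancel, apply_one]

theorem disp_one (h2 : ∀ v : V, v + v = 0) (v : V) : disp (1 : AutE V) v = 0 := by
  rw [disp, apply_one, h2]

theorem disp_add (g : AutE V) (v w : V) : disp g (v + w) = disp g v + disp g w := by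
  simp only [disp, map_add]; abel

theorem apply_eq (h2 : ∀ v : V, v + v = 0) (g : AutE V) (v : V) :
    (g : AddMonoid.End V) v = v + disp g v := by
  have := h2 v
  rw [disp, add_comm ((g : AddMonoid.End V) v) v, ← add_assoc, this, zero_add]

theorem disp_eq_zero (h2 : ∀ v : V, v + v = 0) {g : AutE V} {v : V} :
    disp g v = 0 ↔ (g : AddMonoid.End V) v = v := by
  constructor
  · intro h; rw [apply_eq h2 g v, h, add_zero]
  · intro h; rw [disp, h, h2]

theorem disp_mul (h2 : ∀ v : V, v + v = 0) (g h : AutE V) (v : V) :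
    disp (g * h) v = disp g ((h : AddMonoid.End V) v) + disp h v := by
  have := h2 ((h : AddMonoid.End V) v)
  simp only [disp, apply_mul]
  rw [show (g : AddMonoid.End V) ((h : AddMonoid.End V) v) + (h : AddMonoid.End V) v +
    ((h : AddMonoid.End V) v + v) = (g : AddMonoid.End V) ((h : AddMonoid.End V) v) +
    ((h : AddMonoid.End V) v + (h : AddMonoid.End V) v) + v by abel, this, add_zero]

theorem conj_disp (g d : AutE V) (v : V) :
    (g : AddMonoid.End V) (disp d v) = disp (g * d * g⁻¹) ((g : AddMonoid.End V) v) := by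
  simp only [disp, apply_mul, inv_apply, map_add]

theorem sq_eq_one (h2 : ∀ v : V, v + v = 0) {G : Subgroup (AutE V)} (hq : IsQuad G) {t : AutE V} (ht : t ∈ G)
    (hpt : IsPGroup 2 (Subgroup.zpowers t)) : t * t = 1 := by
  refine ext_apply fun v => ?_
  have h := hq _ (Subgroup.zpowers_le.2 ht) hpt t (Subgroup.mem_zpowers t) t (Subgroup.mem_zpowers t) v
  rw [disp_eq_zero h2] at h
  rw [apply_mul, apply_one, apply_eq h2 t v, map_add, h, apply_eq h2 t v, add_assoc, h2, add_zero]

theorem mul_self_of_mem (h2 : ∀ v : V, v + v = 0) {G T : Subgroup (AutE V)} (hq : IsQuad G) (hT : T ≤ G)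
    (hp : IsPGroup 2 T) {t : AutE V} (ht : t ∈ T) : t * t = 1 :=
  sq_eq_one h2 hq (hT ht) (hp.to_le (Subgroup.zpowers_le.2 ht))

theorem isPGroup_of_sq {R : Subgroup (AutE V)} (h : ∀ r ∈ R, r * r = 1) : IsPGroup 2 R :=
  fun r => ⟨1, Subtype.ext (by simpa [pow_two] using h r r.2)⟩

theorem fixS_anti {A B : Subgroup (AutE V)} (h : A ≤ B) : fixS B ≤ fixS A := fun _ hv a ha => hv a (h ha)

/-- An element of odd order is the displacement of a displacement. -/
theorem disp_disp_of_odd (h2 : ∀ v : V, v + v = 0) {d : AutE V} (hd : Odd (orderOf d)) (v : V) :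
    ∃ w : V, disp d v = disp d (disp d w) := by
  set m := orderOf d with hm
  have hpow : ∀ i : ℕ, ∃ w : V, disp (d ^ i) v = disp d w := by
    intro i
    induction i with
    | zero => exact ⟨0, by rw [pow_zero, disp_one h2]; simp [disp]⟩
    | succ i ih =>
      obtain ⟨w, hw⟩ := ih
      refine ⟨((d ^ i : AutE V) : AddMonoid.End V) v + w, ?_⟩
      rw [pow_succ', disp_mul h2, hw, disp_add]
  choose w hw using hpow
  refine ⟨∑ i ∈ Finset.range m, w i, ?_⟩
  have hsum : ∀ (g : AutE V) (f : ℕ → V) (k : ℕ),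
      disp g (∑ i ∈ Finset.range k, f i) = ∑ i ∈ Finset.range k, disp g (f i) := by
    intro g f k
    induction k with
    | zero => simp [disp]
    | succ k ih => rw [Finset.sum_range_succ, Finset.sum_range_succ, disp_add, ih]
  rw [hsum d w, ← Finset.sum_congr rfl fun i _ => hw i]
  have e : ∑ i ∈ Finset.range m, disp (d ^ i) v =
      (∑ i ∈ Finset.range m, ((d ^ i : AutE V) : AddMonoid.End V) v) + v := by
    simp only [disp, Finset.sum_add_distrib, Finset.sum_const, Finset.card_range]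
    obtain ⟨k, hk⟩ := hd
    rw [hk, add_nsmul, one_nsmul, mul_comm, mul_nsmul, two_nsmul, h2, zero_add]
  rw [e, disp_add]
  have hfix : disp d (∑ i ∈ Finset.range m, ((d ^ i : AutE V) : AddMonoid.End V) v) = 0 := by
    rw [disp, map_sum]
    have h1 : ∑ i ∈ Finset.range m, (d : AddMonoid.End V) (((d ^ i : AutE V) : AddMonoid.End V) v) =
        ∑ i ∈ Finset.range m, ((d ^ (i + 1) : AutE V) : AddMonoid.End V) v :=
      Finset.sum_congr rfl fun i _ => by rw [pow_succ' d i, apply_mul]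
    rw [h1]
    have h3 := Finset.sum_range_succ' (fun i => ((d ^ i : AutE V) : AddMonoid.End V) v) m
    have h4 := Finset.sum_range_succ (fun i => ((d ^ i : AutE V) : AddMonoid.End V) v) m
    rw [h4, hm, pow_orderOf_eq_one, pow_zero, ← hm] at h3
    rw [← add_right_cancel h3, h2]
  rw [hfix, zero_add]

theorem exists_odd {R : Subgroup (AutE V)} [Finite R] (h : ¬ IsPGroup 2 R) :
    ∃ d ∈ R, Odd (orderOf d) ∧ d ≠ 1 := by
  by_contra hc
  push_neg at hc
  refine h fun r => ?_
  obtain ⟨e, m, hm, hem⟩ := Nat.exists_eq_two_pow_mul_odd (orderOf_pos r).ne'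
  refine ⟨e, Subtype.ext ?_⟩
  have ho : orderOf ((r : AutE V) ^ 2 ^ e) = m := by
    rw [orderOf_pow_of_dvd (by positivity), Subgroup.orderOf_coe, hem, Nat.mul_div_cancel_left _ (by positivity)]
    rw [Subgroup.orderOf_coe, hem]; exact dvd_mul_right _ _
  simpa using hc _ (R.pow_mem r.2 _) (by rwa [ho])

theorem disp_mem {U : AddSubgroup V} {S : Set (AutE V)} (h2 : ∀ v : V, v + v = 0)
    (hS : ∀ g ∈ S, ∀ v, disp g v ∈ U) {g : AutE V} (hg : g ∈ Subgroup.closure S) : ∀ v, disp g v ∈ U := by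
  induction hg using Subgroup.closure_induction with
  | mem x hx => exact hS x hx
  | one => intro v; rw [disp_one h2]; exact zero_mem _
  | mul x y _ _ hx hy => intro v; rw [disp_mul h2]; exact add_mem (hx _) (hy _)
  | inv x _ hx =>
    intro v
    have h := hx (((x⁻¹ : AutE V) : AddMonoid.End V) v)
    rw [disp, apply_inv] at h
    rw [disp, add_comm]; exact h

/-- The conjugates of `A` under `G'`. -/
def conjSet (G' A : Subgroup (AutE V)) : Set (AutE V) := {x | ∃ g ∈ G', ∃ a ∈ A, x = g * a * g⁻¹}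

theorem closure_conjSet_le {G' A : Subgroup (AutE V)} (h : A ≤ G') : Subgroup.closure (conjSet G' A) ≤ G' := by
  rw [Subgroup.closure_le]
  rintro _ ⟨g, hg, a, ha, rfl⟩
  exact G'.mul_mem (G'.mul_mem hg (h ha)) (G'.inv_mem hg)

theorem le_closure_conjSet (G' A : Subgroup (AutE V)) : A ≤ Subgroup.closure (conjSet G' A) :=
  fun a ha => Subgroup.subset_closure ⟨1, G'.one_mem, a, ha, by simp⟩

theorem conj_closure {G' A : Subgroup (AutE V)} {g : AutE V} (hg : g ∈ G') :
    Subgroup.closure (conjSet G' A) ≤ (Subgroup.closure (conjSet G' A)).comap (MulAut.conj g).toMonoidHom := by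
  rw [Subgroup.closure_le]
  rintro _ ⟨k, hk, a, ha, rfl⟩
  show MulAut.conj g (k * a * k⁻¹) ∈ Subgroup.closure (conjSet G' A)
  exact Subgroup.subset_closure ⟨g * k, G'.mul_mem hg hk, a, ha, by simp [MulAut.conj_apply, mul_assoc]⟩

/-- The span of the displacements of the odd elements in the closure of the conjugates. -/
def moved (G' A : Subgroup (AutE V)) : AddSubgroup V :=
  AddSubgroup.closure {x | ∃ d ∈ Subgroup.closure (conjSet G' A), Odd (orderOf d) ∧ ∃ v, x = disp d v}

theorem moved_invariant {G' A : Subgroup (AutE V)} {g : AutE V} (hg : g ∈ G') {x : V} (hx : x ∈ moved G' A) :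
    (g : AddMonoid.End V) x ∈ moved G' A := by
  induction hx using AddSubgroup.closure_induction with
  | mem x hx =>
    obtain ⟨d, hd, ho, v, rfl⟩ := hx
    refine AddSubgroup.subset_closure ⟨g * d * g⁻¹, ?_, ?_, (g : AddMonoid.End V) v, conj_disp g d v⟩
    · exact conj_closure hg hd
    · have : orderOf (g * d * g⁻¹) = orderOf d :=
        orderOf_injective (MulAut.conj g).toMonoidHom (MulAut.conj g).injective d
      rwa [this]
  | zero => rw [map_zero]; exact zero_mem _
  | add x y _ _ hx hy => rw [map_add]; exact add_mem hx hy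
  | neg x _ hx => rw [map_neg]; exact neg_mem hx

/-- Restriction of the action to an invariant subgroup. -/
def restrict (U : AddSubgroup V) (G' : Subgroup (AutE V))
    (hU : ∀ g ∈ G', ∀ x ∈ U, (g : AddMonoid.End V) x ∈ U) : ↥G' →* AutE ↥U :=
  MonoidHom.toHomUnits
    ({ toFun := fun g => (((g : AutE V) : AddMonoid.End V).comp U.subtype).codRestrict U
          (fun x => hU g g.2 x x.2)
       map_one' := AddMonoidHom.ext fun x => Subtype.ext (apply_one (x : V))
       map_mul' := fun g h => AddMonoidHom.ext fun x => Subtype.ext (apply_mul (g : AutE V) h (x : V)) } :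
      ↥G' →* AddMonoid.End ↥U)

theorem restrict_apply (U : AddSubgroup V) (G' : Subgroup (AutE V))
    (hU : ∀ g ∈ G', ∀ x ∈ U, (g : AddMonoid.End V) x ∈ U) (g : ↥G') (x : ↥U) :
    ((((restrict U G' hU g : AutE ↥U) : AddMonoid.End ↥U) x : ↥U) : V) =
      ((g : AutE V) : AddMonoid.End V) x := rfl

theorem restrict_disp (U : AddSubgroup V) (G' : Subgroup (AutE V))
    (hU : ∀ g ∈ G', ∀ x ∈ U, (g : AddMonoid.End V) x ∈ U) (g : ↥G') (x : ↥U) :
    ((disp (restrict U G' hU g) x : ↥U) : V) = disp (g : AutE V) (x : V) := rfl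

variable [Finite V]

instance finite_autE : Finite (AutE V) :=
  Finite.of_injective (fun g => ⇑(g : AddMonoid.End V)) fun _ _ e => ext_apply fun v => congrFun e v

/-- Passing to the moved subgroup. -/
theorem reduce (h2 : ∀ v : V, v + v = 0) {G' A : Subgroup (AutE V)} (hq : IsQuad G') (hA : A ≤ G')
    (hA2 : IsPGroup 2 A)
    (hmax : ∀ T : Subgroup (AutE V), T ≤ A → Nat.card T * Nat.card (fixS T) ≤ Nat.card A * Nat.card (fixS A))
    (hH : ¬ IsPGroup 2 (Subgroup.closure (conjSet G' A))) :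
    ∃ G'' : Subgroup (AutE ↥(moved G' A)), IsQuad G'' ∧ NoTwo G'' ∧ HasOffender G'' ∧
      Nat.card G'' ≤ Nat.card G' ∧ (HasThree G'' → HasThree G') := by
  classical
  set U := moved G' A with hUdef
  set φ := restrict U G' (fun g hg x hx => moved_invariant hg hx) with hφ
  have h2U : ∀ x : ↥U, x + x = 0 := fun x => Subtype.ext (h2 x)
  -- 2-subgroups of the image lift
  have hlift : ∀ T : Subgroup (AutE ↥U), T ≤ φ.range → IsPGroup 2 T →
      ∃ T0 : Subgroup ↥G', IsPGroup 2 T0 ∧ T0.map φ = T := by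
    intro T hT hp
    haveI : Fact (Nat.Prime 2) := ⟨Nat.prime_two⟩
    let ψ := φ.subgroupComap T
    have hψ : Function.Surjective ψ := by
      rintro ⟨t, ht⟩
      obtain ⟨g, hg⟩ := hT ht
      exact ⟨⟨g, show φ g ∈ T by rw [hg]; exact ht⟩, Subtype.ext hg⟩
    obtain ⟨P⟩ : Nonempty (Sylow 2 ↥(T.comap φ)) := inferInstance
    refine ⟨(P : Subgroup ↥(T.comap φ)).map (T.comap φ).subtype, P.isPGroup'.map _, ?_⟩
    have htop : ((P.mapSurjective hψ : Sylow 2 ↥T) : Subgroup ↥T) = ⊤ :=
      ((P.mapSurjective hψ).is_maximal' (hp.of_equiv Subgroup.topEquiv.symm) le_top).symm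
    refine le_antisymm ?_ ?_
    · rintro _ ⟨_, ⟨x, hx, rfl⟩, rfl⟩; exact x.2
    · intro t ht
      obtain ⟨x, hx, hxt⟩ : (⟨t, ht⟩ : ↥T) ∈ ((P.mapSurjective hψ : Sylow 2 ↥T) : Subgroup ↥T) :=
        htop ▸ Subgroup.mem_top _
      exact ⟨x, ⟨x, hx, rfl⟩, congrArg Subtype.val hxt⟩
  have hQ : IsQuad φ.range := by
    intro T hT hp s hs t ht v
    obtain ⟨T0, hT0, rfl⟩ := hlift T hT hp
    obtain ⟨s', hs', rfl⟩ := hs
    obtain ⟨t', ht', rfl⟩ := ht
    refine Subtype.ext ?_
    rw [restrict_disp, restrict_disp]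
    exact hq (T0.map G'.subtype) (Subgroup.map_subtype_le _) (hT0.map _) _ ⟨s', hs', rfl⟩ _ ⟨t', ht', rfl⟩ _
  set Ā : Subgroup (AutE ↥U) := (A.subgroupOf G').map φ with hĀ
  have hĀ2 : IsPGroup 2 Ā := hA2.comap_subtype.map φ
  have hodd := exists_odd hH
  obtain ⟨d, hd, hdo, hd1⟩ := hodd
  have hgen : ∀ e ∈ Subgroup.closure (conjSet G' A), Odd (orderOf e) → ∀ v : V,
      ∃ w : ↥U, disp e v = disp e (w : V) := by
    intro e he ho v
    obtain ⟨w, hw⟩ := disp_disp_of_odd h2 ho v
    exact ⟨⟨disp e w, AddSubgroup.subset_closure ⟨e, he, ho, w, rfl⟩⟩, hw⟩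
  have hne : Ā ≠ ⊥ := by
    intro hbot
    have hall : ∀ e ∈ Subgroup.closure (conjSet G' A), ∀ x ∈ U, (e : AddMonoid.End V) x = x := by
      intro e he
      induction he using Subgroup.closure_induction with
      | mem e he =>
        obtain ⟨g, hg, a, ha, rfl⟩ := he
        intro x hx
        have h1 : φ ⟨a, hA ha⟩ = 1 := by
          rw [← Subgroup.mem_bot, ← hbot]
          exact ⟨⟨a, hA ha⟩, ha, rfl⟩
        have h3 : (a : AddMonoid.End V) (((g⁻¹ : AutE V) : AddMonoid.End V) x) =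
            ((g⁻¹ : AutE V) : AddMonoid.End V) x := by
          have h4 := congrArg (fun f : AutE ↥U =>
            (((f : AddMonoid.End ↥U) ⟨_, moved_invariant (G'.inv_mem hg) hx⟩ : ↥U) : V)) h1
          simp only [apply_one] at h4
          rwa [hφ, restrict_apply] at h4
        rw [apply_mul, apply_mul, h3, apply_inv]
      | one => exact fun x _ => apply_one x
      | mul e f _ _ he hf => intro x hx; rw [apply_mul, hf x hx, he x hx]
      | inv e _ he =>
        intro x hx
        have := congrArg ((e⁻¹ : AutE V) : AddMonoid.End V) (he x hx)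
        rw [inv_apply] at this; exact this.symm
    refine hd1 (ext_apply fun v => ?_)
    obtain ⟨w, hw⟩ := hgen d hd hdo v
    rw [apply_one, ← disp_eq_zero h2, hw, disp_eq_zero h2]
    exact hall d hd _ w.2
  have hNT : NoTwo φ.range := by
    intro R hR hRn hRp
    rw [eq_bot_iff]
    intro r hr
    rw [Subgroup.mem_bot]
    have hcl : ∀ e ∈ Subgroup.closure (conjSet G' A), ∀ he : e ∈ G', ∀ x : ↥U,
        ((φ ⟨e, he⟩ : AutE ↥U) : AddMonoid.End ↥U) (disp r x) = disp r x ∧
          disp r (((φ ⟨e, he⟩ : AutE ↥U) : AddMonoid.End ↥U) x) = disp r x := by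
      intro e he
      induction he using Subgroup.closure_induction with
      | mem e he =>
        intro heG x
        obtain ⟨g, hg, a, ha, rfl⟩ := he
        set T := R ⊔ Ā.map (MulAut.conj (φ ⟨g, hg⟩)).toMonoidHom with hT
        have hsub : Ā.map (MulAut.conj (φ ⟨g, hg⟩)).toMonoidHom ≤ φ.range := by
          rintro _ ⟨_, ⟨y, -, rfl⟩, rfl⟩
          exact φ.range.mul_mem (φ.range.mul_mem ⟨_, rfl⟩ ⟨_, rfl⟩) (φ.range.inv_mem ⟨_, rfl⟩)
        have hTle : T ≤ φ.range := sup_le hR hsub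
        have hnorm : Ā.map (MulAut.conj (φ ⟨g, hg⟩)).toMonoidHom ≤ Subgroup.normalizer (R : Set (AutE ↥U)) := by
          intro y hy
          rw [Subgroup.mem_normalizer_iff]
          intro z
          refine ⟨fun hz => hRn y (hsub hy) z hz, fun hz => ?_⟩
          have := hRn y⁻¹ (φ.range.inv_mem (hsub hy)) _ hz
          simpa [mul_assoc] using this
        have hTp : IsPGroup 2 T := hRp.to_sup_of_normal_left' (hĀ2.map _) hnorm
        have ha' : φ ⟨g * a * g⁻¹, heG⟩ ∈ T := by
          refine Subgroup.mem_sup_right ⟨φ ⟨a, hA ha⟩, ⟨⟨a, hA ha⟩, ha, rfl⟩, ?_⟩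
          show φ ⟨g, hg⟩ * φ ⟨a, hA ha⟩ * (φ ⟨g, hg⟩)⁻¹ = _
          rw [← map_inv φ, ← map_mul φ, ← map_mul φ]
          rfl
        have hr' : r ∈ T := Subgroup.mem_sup_left hr
        constructor
        · exact (disp_eq_zero h2U).1 (hQ T hTle hTp _ ha' _ hr' x)
        · rw [apply_eq h2U (φ ⟨g * a * g⁻¹, heG⟩) x, disp_add, hQ T hTle hTp _ hr' _ ha' x, add_zero]
      | one =>
        intro h1 x
        rw [show (⟨1, h1⟩ : ↥G') = 1 from rfl, map_one, apply_one, apply_one]
        exact ⟨rfl, rfl⟩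
      | mul e f he' hf' he hf =>
        intro hef x
        have hee := closure_conjSet_le hA he'
        have hff := closure_conjSet_le hA hf'
        rw [show (⟨e * f, hef⟩ : ↥G') = ⟨e, hee⟩ * ⟨f, hff⟩ from rfl, map_mul, apply_mul, apply_mul,
          (hf hff x).1, (he hee x).1]
        exact ⟨rfl, by rw [(he hee _).2, (hf hff x).2]⟩
      | inv e he' he =>
        intro hei x
        have hee := closure_conjSet_le hA he'
        rw [show (⟨e⁻¹, hei⟩ : ↥G') = (⟨e, hee⟩ : ↥G')⁻¹ from rfl, map_inv]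
        constructor
        · conv_lhs => rw [← (he hee x).1]
          rw [inv_apply]
        · conv_lhs => rw [← (he hee _).2]
          rw [apply_inv]
    obtain ⟨r0, hr0⟩ := hR hr
    refine ext_apply fun x => ?_
    rw [apply_one, ← disp_eq_zero h2U]
    -- it is enough to treat the generators
    have key : ∀ y ∈ U, ∀ hy : y ∈ U, disp r (⟨y, hy⟩ : ↥U) = 0 := by
      intro y hy
      induction hy using AddSubgroup.closure_induction with
      | mem y hy =>
        intro hyU
        obtain ⟨e, he, ho, v, rfl⟩ := hy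
        obtain ⟨w, hw⟩ := hgen e he ho v
        have heG := closure_conjSet_le hA he
        have e1 : (⟨disp e v, hyU⟩ : ↥U) = disp (φ ⟨e, heG⟩) w := Subtype.ext hw
        rw [e1]
        show disp r (((φ ⟨e, heG⟩ : AutE ↥U) : AddMonoid.End ↥U) w + w) = 0
        rw [disp_add, (hcl e he heG w).2, h2U]
      | zero => intro h; exact (disp_eq_zero h2U).2 (map_zero _)
      | add y z hy hz ihy ihz =>
        intro h
        rw [show (⟨y + z, h⟩ : ↥U) = ⟨y, hy⟩ + ⟨z, hz⟩ from rfl, disp_add, ihy hy, ihz hz, add_zero]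
      | neg y hy ih =>
        intro h
        rw [disp_eq_zero h2U, show (⟨-y, h⟩ : ↥U) = -⟨y, hy⟩ from rfl, map_neg, (disp_eq_zero h2U).1 (ih hy)]
    exact key x x.2 x.2
  refine ⟨φ.range, hQ, hNT, ⟨Ā, ?_, hĀ2, hne, ?_⟩,
    Nat.card_le_card_of_surjective _ φ.rangeRestrict_surjective, ?_⟩
  · rintro _ ⟨y, -, rfl⟩; exact ⟨y, rfl⟩
  · set T0 : Subgroup ↥G' := A.subgroupOf G' ⊓ φ.ker with hT0
    set T := T0.map G'.subtype with hT
    have hTA : T ≤ A := by rintro _ ⟨y, hy, rfl⟩; exact hy.1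
    have hm := hmax T hTA
    have hcard : Nat.card A = Nat.card Ā * Nat.card T := by
      rw [hT, Nat.card_congr (T0.equivMapOfInjective _ G'.subtype_injective).toEquiv.symm,
        ← Nat.card_congr (Subgroup.subgroupOfEquivOfLe hA).toEquiv]
      let ψ := φ.comp (A.subgroupOf G').subtype
      have hr : ψ.range = Ā := by rw [MonoidHom.range_comp, Subgroup.range_subtype]
      have hk : ψ.ker.map (A.subgroupOf G').subtype = T0 := by
        rw [show ψ.ker = φ.ker.subgroupOf (A.subgroupOf G') from rfl, Subgroup.subgroupOf_map_subtype,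
          inf_comm]
      rw [Subgroup.card_eq_card_quotient_mul_card_subgroup ψ.ker,
        Nat.card_congr (QuotientGroup.quotientKerEquivRange ψ).toEquiv, hr, ← hk,
        Nat.card_congr (ψ.ker.equivMapOfInjective _ (A.subgroupOf G').subtype_injective).toEquiv]
    -- the map from fixed points
    let F := fixS A
    let f : ↥U × ↥F →+ V := AddMonoidHom.coprod U.subtype F.subtype
    have hfr : f.range ≤ fixS T := by
      rintro _ ⟨⟨x, y⟩, rfl⟩
      refine add_mem ?_ (fixS_anti hTA y.2)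
      rintro _ ⟨t, ht, rfl⟩
      have := congrArg (fun g : AutE ↥U => (((g : AddMonoid.End ↥U) x : ↥U) : V)) (MonoidHom.mem_ker.1 ht.2)
      simp only [apply_one] at this
      exact this
    have hfk : Nat.card f.ker ≤ Nat.card (fixS Ā) := by
      refine Nat.card_le_card_of_injective (fun p => ⟨p.1.1, ?_⟩) ?_
      · rintro _ ⟨a, ha, rfl⟩
        refine Subtype.ext ?_
        rw [hφ, restrict_apply]
        have hp : (p.1.1 : V) + (p.1.2 : V) = 0 := p.2
        rw [eq_neg_of_add_eq_zero_left hp, map_neg, p.1.2.2 (a : AutE V) ha]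
      · rintro ⟨⟨x, y⟩, hp⟩ ⟨⟨x', y'⟩, hp'⟩ e
        have e1 : x = x' := congrArg Subtype.val e
        subst e1
        refine Subtype.ext (Prod.ext rfl (Subtype.ext ?_))
        exact add_left_cancel ((show (x : V) + y = 0 from hp).trans (show (x : V) + y' = 0 from hp').symm)
    have hmain : Nat.card U * Nat.card F ≤ Nat.card (fixS T) * Nat.card (fixS Ā) := by
      rw [← Nat.card_prod, AddSubgroup.card_eq_card_quotient_mul_card_addSubgroup f.ker,
        Nat.card_congr (QuotientAddGroup.quotientKerEquivRange f).toEquiv]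
      exact Nat.mul_le_mul (Nat.card_le_card_of_injective _ (AddSubgroup.inclusion_injective hfr)) hfk
    have hT1 : 0 < Nat.card T := Nat.card_pos
    have hF1 : 0 < Nat.card F := Nat.card_pos
    refine Nat.le_of_mul_le_mul_right ?_ (Nat.mul_pos hT1 hF1)
    calc Nat.card U * (Nat.card T * Nat.card F) = Nat.card T * (Nat.card U * Nat.card F) := by ring
      _ ≤ Nat.card T * (Nat.card (fixS T) * Nat.card (fixS Ā)) := Nat.mul_le_mul_left _ hmain
      _ = Nat.card T * Nat.card (fixS T) * Nat.card (fixS Ā) := by ring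
      _ ≤ Nat.card A * Nat.card F * Nat.card (fixS Ā) := Nat.mul_le_mul_right _ hm
      _ = Nat.card Ā * Nat.card (fixS Ā) * (Nat.card T * Nat.card F) := by rw [hcard]; ring
  · rintro ⟨_, ⟨x, rfl⟩, _, ⟨y, rfl⟩, hx, hy, h3⟩
    have hfix : ∀ x : ↥G', φ x * φ x = 1 → ∃ x' : ↥G', φ x' = φ x ∧ (x' : AutE V) * x' = 1 := by
      intro x hx
      obtain ⟨e, m, ⟨k, hk⟩, hem⟩ := Nat.exists_eq_two_pow_mul_odd (orderOf_pos x).ne'
      refine ⟨x ^ m, ?_, ?_⟩
      · rw [map_pow, hk, pow_succ, pow_mul, pow_two, hx, one_pow, one_mul]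
      · refine sq_eq_one h2 hq (x ^ m).2 fun z => ⟨e, ?_⟩
        obtain ⟨z, n, rfl⟩ := z
        have h1 : ((x ^ m : ↥G') : AutE V) ^ 2 ^ e = 1 := by
          rw [← SubgroupClass.coe_pow, ← pow_mul, mul_comm m, ← hem, pow_orderOf_eq_one, OneMemClass.coe_one]
        refine Subtype.ext ?_
        show (((x ^ m : ↥G') : AutE V) ^ n) ^ 2 ^ e = 1
        rw [← zpow_natCast, ← zpow_mul, mul_comm, zpow_mul, zpow_natCast, h1, one_zpow]
    obtain ⟨x', hx', hxx⟩ := hfix x hx
    obtain ⟨y', hy', hyy⟩ := hfix y hy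
    refine ⟨x', x'.2, y', y'.2, hxx, hyy, h3.trans ?_⟩
    rw [← hx', ← hy', ← map_mul]
    exact (orderOf_map_dvd φ _).trans (Subgroup.orderOf_coe (x' * y')).symm.dvd

theorem fixS_conj (A : Subgroup (AutE V)) (g : AutE V) :
    Nat.card (fixS (A.map (MulAut.conj g).toMonoidHom)) = Nat.card (fixS A) := by
  refine (Nat.card_congr ?_).symm
  refine ⟨fun v => ⟨(g : AddMonoid.End V) v, ?_⟩, fun v => ⟨((g⁻¹ : AutE V) : AddMonoid.End V) v, ?_⟩,
    fun v => Subtype.ext (inv_apply g v), fun v => Subtype.ext (apply_inv g v)⟩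
  · rintro _ ⟨a, ha, rfl⟩
    show ((g * a * g⁻¹ : AutE V) : AddMonoid.End V) _ = _
    rw [apply_mul, apply_mul, inv_apply, v.2 a ha]
  · intro a ha
    have h : ((g * a * g⁻¹ : AutE V) : AddMonoid.End V) v = v := v.2 _ ⟨a, ha, rfl⟩
    rw [apply_mul, apply_mul] at h
    conv_rhs => rw [← h, inv_apply]

theorem map_subtype_conj (G : Subgroup (AutE V)) (K : Subgroup ↥G) (hK : K.Normal) :
    ∀ g ∈ G, ∀ r ∈ K.map G.subtype, g * r * g⁻¹ ∈ K.map G.subtype := by
  rintro g hg _ ⟨r, hr, rfl⟩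
  exact ⟨⟨g, hg⟩ * r * ⟨g, hg⟩⁻¹, hK.conj_mem r hr _, rfl⟩

/-- The action on a quotient by an invariant subgroup. -/
def quotHom (C0 : AddSubgroup V) (G : Subgroup (AutE V))
    (hinv : ∀ g : ↥G, C0 ≤ C0.comap ((g : AutE V) : AddMonoid.End V)) : ↥G →* AutE (V ⧸ C0) :=
  MonoidHom.toHomUnits
    ({ toFun := fun g => QuotientAddGroup.map C0 C0 ((g : AutE V) : AddMonoid.End V) (hinv g)
       map_one' := AddMonoidHom.ext fun x => QuotientAddGroup.induction_on x fun v =>
         congrArg QuotientAddGroup.mk (apply_one v)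
       map_mul' := fun g h => AddMonoidHom.ext fun x => QuotientAddGroup.induction_on x fun v =>
         congrArg QuotientAddGroup.mk (apply_mul (g : AutE V) h v) } :
      ↥G →* AddMonoid.End (V ⧸ C0))

theorem quotHom_apply (C0 : AddSubgroup V) (G : Subgroup (AutE V))
    (hinv : ∀ g : ↥G, C0 ≤ C0.comap ((g : AutE V) : AddMonoid.End V)) (g : ↥G) (v : V) :
    ((quotHom C0 G hinv g : AutE (V ⧸ C0)) : AddMonoid.End (V ⧸ C0)) (v : V ⧸ C0) =
      ((((g : AutE V) : AddMonoid.End V) v : V) : V ⧸ C0) := rfl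

theorem quotHom_disp (C0 : AddSubgroup V) (G : Subgroup (AutE V))
    (hinv : ∀ g : ↥G, C0 ≤ C0.comap ((g : AutE V) : AddMonoid.End V)) (g : ↥G) (v : V) :
    disp (quotHom C0 G hinv g) (v : V ⧸ C0) = ((disp (g : AutE V) v : V) : V ⧸ C0) := by
  rw [disp, quotHom_apply, ← QuotientAddGroup.mk_add]; rfl

/-- Removing the fixed points. -/
theorem quotientStep (h2 : ∀ v : V, v + v = 0) {G A : Subgroup (AutE V)} (hq : IsQuad G) (hno : NoTwo G)
    (hAG : A ≤ G) (hA2 : IsPGroup 2 A) (hA1 : A ≠ ⊥) (hVA : Nat.card V ≤ Nat.card A * Nat.card (fixS A))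
    (hne : fixS G ≠ ⊥) :
    ∃ G' : Subgroup (AutE (V ⧸ fixS G)), (∀ x : V ⧸ fixS G, x + x = 0) ∧
      Nat.card (V ⧸ fixS G) < Nat.card V ∧ Nat.card G' ≤ Nat.card G ∧ IsQuad G' ∧ NoTwo G' ∧ HasOffender G' ∧
      (HasThree G' → HasThree G) := by
  set C0 := fixS G
  have hinv : ∀ g : ↥G, C0 ≤ C0.comap ((g : AutE V) : AddMonoid.End V) := fun g x hx => by
    show ((g : AutE V) : AddMonoid.End V) x ∈ C0
    rw [hx g g.2]; exact hx
  set ψ := quotHom C0 G hinv with hψdef
  have hψ := quotHom_apply C0 G hinv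
  have h2Q : ∀ x : V ⧸ C0, x + x = 0 := fun x => QuotientAddGroup.induction_on x fun v => by
    rw [← QuotientAddGroup.mk_add, h2]; rfl
  have hdispQ := quotHom_disp C0 G hinv
  have hinj : Function.Injective ψ := by
    rw [← MonoidHom.ker_eq_bot_iff, ← Subgroup.map_eq_bot_iff_of_injective ψ.ker G.subtype_injective]
    refine hno _ (Subgroup.map_subtype_le _) ?_ ?_
    · exact map_subtype_conj G ψ.ker (MonoidHom.normal_ker ψ)
    · refine isPGroup_of_sq ?_
      rintro _ ⟨r, hr, rfl⟩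
      refine ext_apply fun v => ?_
      have h1 : disp (r : AutE V) v ∈ C0 := by
        rw [← QuotientAddGroup.eq_zero_iff, ← hdispQ, MonoidHom.mem_ker.1 hr, disp_one h2Q]
      show ((r : AutE V) * r : AutE V).val v = _
      rw [apply_mul, apply_one, apply_eq h2 (r : AutE V) v, map_add, h1 _ r.2,
        apply_eq h2 (r : AutE V) v, add_assoc, h2, add_zero]
  let e := MonoidHom.ofInjective hinj
  have hcardV : Nat.card (V ⧸ C0) * Nat.card C0 = Nat.card V :=
    (AddSubgroup.card_eq_card_quotient_mul_card_addSubgroup C0).symm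
  have hC01 : 1 < Nat.card C0 := (AddSubgroup.one_lt_card_iff_ne_bot _).2 hne
  have hc1 : Nat.card (V ⧸ C0) < Nat.card V := by
    rw [← hcardV]
    exact lt_mul_of_one_lt_right Nat.card_pos hC01
  have hc2 : Nat.card ψ.range ≤ Nat.card G :=
    Nat.card_le_card_of_surjective _ ψ.rangeRestrict_surjective
  have hpull : ∀ T : Subgroup (AutE (V ⧸ C0)), IsPGroup 2 T → IsPGroup 2 ((T.comap ψ).map G.subtype) :=
    fun T hT => (hT.comap_of_injective ψ hinj).map _
  have hQ' : IsQuad ψ.range := by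
    intro T hT hp s hs t ht x
    obtain ⟨s', rfl⟩ := hT hs
    obtain ⟨t', rfl⟩ := hT ht
    induction x using QuotientAddGroup.induction_on with
    | _ v =>
      rw [hdispQ, hdispQ, hq _ (Subgroup.map_subtype_le _) (hpull T hp) s' ⟨s', hs, rfl⟩ t' ⟨t', ht, rfl⟩ v]
      rfl
  have hN' : NoTwo ψ.range := by
    intro R hR hRn hRp
    have h1 := hno _ (Subgroup.map_subtype_le _) (by
      rintro g hg _ ⟨r, hr, rfl⟩
      refine ⟨⟨g, hg⟩ * r * ⟨g, hg⟩⁻¹, ?_, rfl⟩
      show ψ _ ∈ R
      rw [map_mul, map_mul, map_inv]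
      exact hRn _ ⟨_, rfl⟩ _ hr) (hpull R hRp)
    rw [eq_bot_iff]
    intro r hr
    obtain ⟨r', rfl⟩ := hR hr
    have h3 : (r' : AutE V) ∈ (R.comap ψ).map G.subtype := ⟨r', hr, rfl⟩
    rw [h1, Subgroup.mem_bot, OneMemClass.coe_eq_one] at h3
    rw [h3, map_one]
    exact one_mem _
  set Ā := (A.subgroupOf G).map ψ with hĀ
  have hcA : Nat.card Ā = Nat.card A := by
    rw [hĀ, ← Nat.card_congr ((A.subgroupOf G).equivMapOfInjective ψ hinj).toEquiv,
      Nat.card_congr (Subgroup.subgroupOfEquivOfLe hAG).toEquiv]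
  have hO' : HasOffender ψ.range := by
    refine ⟨Ā, ?_, hA2.comap_subtype.map _, ?_, ?_⟩
    · rintro _ ⟨y, -, rfl⟩; exact ⟨y, rfl⟩
    · rw [← Subgroup.one_lt_card_iff_ne_bot, hcA, Subgroup.one_lt_card_iff_ne_bot]; exact hA1
    · let f : ↥(fixS A) →+ V ⧸ C0 := (QuotientAddGroup.mk' C0).comp (fixS A).subtype
      have hr : f.range ≤ fixS Ā := by
        rintro _ ⟨v, rfl⟩
        rintro _ ⟨a, ha, rfl⟩
        show ((ψ a : AutE (V ⧸ C0)) : AddMonoid.End (V ⧸ C0)) ((v : V) : V ⧸ C0) = ((v : V) : V ⧸ C0)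
        rw [hψ, v.2 (a : AutE V) ha]
      have hk : Nat.card f.ker ≤ Nat.card C0 := by
        refine Nat.card_le_card_of_injective (fun v => ⟨v.1, ?_⟩) fun v w h => ?_
        · exact (QuotientAddGroup.eq_zero_iff _).1 v.2
        · exact Subtype.ext (Subtype.ext (congrArg Subtype.val h :))
      have h5 : Nat.card (fixS A) ≤ Nat.card (fixS Ā) * Nat.card C0 := by
        rw [AddSubgroup.card_eq_card_quotient_mul_card_addSubgroup f.ker,
          Nat.card_congr (QuotientAddGroup.quotientKerEquivRange f).toEquiv]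
        exact Nat.mul_le_mul (Nat.card_le_card_of_injective _ (AddSubgroup.inclusion_injective hr)) hk
      refine Nat.le_of_mul_le_mul_right ?_ (Nat.card_pos (α := ↥C0))
      rw [hcardV, hcA, mul_assoc]
      exact hVA.trans (Nat.mul_le_mul_left _ h5)
  refine ⟨ψ.range, h2Q, hc1, hc2, hQ', hN', hO', ?_⟩
  rintro ⟨_, ⟨x', rfl⟩, _, ⟨y', rfl⟩, hxx, hyy, h3⟩
  have hxx' : x' * x' = 1 := hinj (by rw [map_mul, hxx, map_one])
  have hyy' : y' * y' = 1 := hinj (by rw [map_mul, hyy, map_one])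
  refine ⟨x', x'.2, y', y'.2, congrArg Subtype.val hxx', congrArg Subtype.val hyy', ?_⟩
  rw [← Subgroup.coe_mul, Subgroup.orderOf_coe]
  rw [← map_mul, orderOf_injective ψ hinj] at h3
  exact h3

/-- Two conjugates generate a group which is not a 2-group. -/
theorem twoConj {G A : Subgroup (AutE V)} (hno : NoTwo G) (hAG : A ≤ G) (hA1 : A ≠ ⊥) :
    ∃ g ∈ G, ¬ IsPGroup 2 ↥(A ⊔ A.map (MulAut.conj g).toMonoidHom) := by
  haveI : Fact (Nat.Prime 2) := ⟨Nat.prime_two⟩
  by_contra hc
  push_neg at hc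
  obtain ⟨N, hNn, hN2, hAN⟩ := Lib.Involution.baerSuzuki (p := 2) (A.subgroupOf G) (fun g => by
    refine IsPGroup.of_injective (hc g g.2)
      ((G.subtype.comp (A.subgroupOf G ⊔ (A.subgroupOf G).map (MulAut.conj g).toMonoidHom).subtype).codRestrict
        _ ?_) ?_
    · rintro ⟨x, hx⟩
      have h1 : (A.subgroupOf G ⊔ (A.subgroupOf G).map (MulAut.conj g).toMonoidHom).map G.subtype ≤
          A ⊔ A.map (MulAut.conj (g : AutE V)).toMonoidHom := by
        rw [Subgroup.map_sup]
        refine sup_le_sup (Subgroup.map_comap_le _ _) ?_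
        rintro _ ⟨_, ⟨a, ha, rfl⟩, rfl⟩
        exact ⟨a, ha, rfl⟩
      exact h1 ⟨x, hx, rfl⟩
    · intro x y h
      exact Subtype.ext (Subtype.ext (congrArg Subtype.val h :)))
  have h1 := hno (N.map G.subtype) (Subgroup.map_subtype_le _) (by
    rintro g hg _ ⟨r, hr, rfl⟩
    exact ⟨⟨g, hg⟩ * r * ⟨g, hg⟩⁻¹, hNn.conj_mem r hr _, rfl⟩) (hN2.map _)
  refine hA1 (eq_bot_iff.2 fun a ha => ?_)
  have h3 : a ∈ N.map G.subtype := ⟨⟨a, hAG ha⟩, hAN ha, rfl⟩
  rwa [h1] at h3

/-- The main theorem. -/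
theorem hasThree_aux : ∀ (n : ℕ) (V : Type u) [AddCommGroup V] [Finite V] (G : Subgroup (AutE V)),
    (∀ v : V, v + v = 0) → Nat.card V + Nat.card G ≤ n → IsQuad G → NoTwo G → HasOffender G → HasThree G := by
  classical
  intro n
  induction n using Nat.strong_induction_on with
  | _ n IH =>
  intro V _ _ G h2 hn hq hno hoff
  haveI : Finite (AutE V) := Finite.of_injective (fun g => ⇑(g : AddMonoid.End V))
    (fun g h e => ext_apply fun v => congrFun e v)
  by_contra hcon
  -- a best offender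
  let Sset : Set (Subgroup (AutE V)) := {B | B ≤ G ∧ IsPGroup 2 B ∧ B ≠ ⊥}
  obtain ⟨A0, hA01, hA02, hA03, hA04⟩ := hoff
  obtain ⟨A, ⟨hAG, hA2, hA1⟩, hbest⟩ := Set.exists_max_image Sset
    (fun B => Nat.card B * Nat.card (fixS B)) (Set.toFinite _) ⟨A0, hA01, hA02, hA03⟩
  have hVA : Nat.card V ≤ Nat.card A * Nat.card (fixS A) := hA04.trans (hbest A0 ⟨hA01, hA02, hA03⟩)
  have hmax : ∀ B : Subgroup (AutE V), Nat.card B * Nat.card (fixS B) = Nat.card A * Nat.card (fixS A) →
      B ≤ G → IsPGroup 2 B → ∀ T : Subgroup (AutE V), T ≤ B →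
      Nat.card T * Nat.card (fixS T) ≤ Nat.card B * Nat.card (fixS B) := by
    intro B hB hBG hB2 T hT
    rw [hB]
    by_cases hT1 : T = ⊥
    · subst hT1
      rw [Subgroup.card_bot, one_mul]
      exact (Finite.card_subtype_le _).trans hVA
    · exact hbest T ⟨hT.trans hBG, hB2.to_le hT, hT1⟩
  -- no proper subgroup and full moved space
  have hR : ∀ (B G' : Subgroup (AutE V)), Nat.card B * Nat.card (fixS B) = Nat.card A * Nat.card (fixS A) →
      IsPGroup 2 B → B ≤ G' → G' ≤ G → ¬ IsPGroup 2 (Subgroup.closure (conjSet G' B)) →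
      G' = G ∧ moved G' B = ⊤ := by
    intro B G' hB hB2 hBG' hG' hH
    have hq' : IsQuad G' := fun T hT => hq T (hT.trans hG')
    obtain ⟨G'', hQ'', hN'', hO'', hc'', hlift⟩ := reduce h2 hq' hBG' hB2
      (hmax B hB (hBG'.trans hG') hB2) hH
    by_contra hne
    have hlt : Nat.card ↥(moved G' B) + Nat.card G'' < n := by
      have h1 : Nat.card ↥(moved G' B) ≤ Nat.card V := Finite.card_subtype_le _
      have h3 : Nat.card G' ≤ Nat.card G := Nat.card_le_card_of_injective _ (Subgroup.inclusion_injective hG')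
      rcases not_and_or.1 hne with hne | hne
      · have : Nat.card G' ≠ Nat.card G := fun e => hne (Subgroup.eq_of_le_of_card_ge hG' e.ge)
        omega
      · have : Nat.card ↥(moved G' B) ≠ Nat.card V := fun e => hne (AddSubgroup.eq_top_of_card_eq _ e)
        omega
    obtain ⟨x, hx, y, hy, hxx, hyy, h3⟩ :=
      hlift (IH _ hlt _ G'' (fun x => Subtype.ext (h2 x)) le_rfl hQ'' hN'' hO'')
    exact hcon ⟨x, hG' hx, y, hG' hy, hxx, hyy, h3⟩
  -- no fixed points
  have hfixG : fixS G = ⊥ := by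
    by_contra hne
    obtain ⟨G', h2Q, hc1, hc2, hQ', hN', hO', hlift⟩ :=
      quotientStep h2 hq hno hAG hA2 hA1 hVA hne
    have hlt : Nat.card (V ⧸ fixS G) + Nat.card G' < n := by omega
    exact hcon (hlift (IH _ hlt _ G' h2Q le_rfl hQ' hN' hO'))
  -- two conjugates generate
  haveI : Fact (Nat.Prime 2) := ⟨Nat.prime_two⟩
  obtain ⟨g, hgG, hnp⟩ := twoConj hno hAG hA1
  set B := A.map (MulAut.conj g).toMonoidHom with hB
  have hBG : B ≤ G := by
    rintro _ ⟨a, ha, rfl⟩
    exact G.mul_mem (G.mul_mem hgG (hAG ha)) (G.inv_mem hgG)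
  have hcB : Nat.card B = Nat.card A :=
    (Nat.card_congr (A.equivMapOfInjective _ (MulAut.conj g).injective).toEquiv).symm
  have hmB : Nat.card B * Nat.card (fixS B) = Nat.card A * Nat.card (fixS A) := by
    rw [hcB, hB, fixS_conj]
  have hB2 : IsPGroup 2 B := hA2.map _
  -- the closure of conjugates in a subgroup generated with another 2-subgroup
  have hnorm : ∀ X Y : Subgroup (AutE V), IsPGroup 2 Y → ¬ IsPGroup 2 ↥(X ⊔ Y) →
      ¬ IsPGroup 2 (Subgroup.closure (conjSet (X ⊔ Y) X)) := by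
    intro X Y hY hXY hH
    set H := Subgroup.closure (conjSet (X ⊔ Y) X)
    have hle : Y ≤ Subgroup.normalizer (H : Set (AutE V)) := by
      intro y hy
      rw [Subgroup.mem_normalizer_iff]
      intro z
      refine ⟨fun hz => conj_closure (Subgroup.mem_sup_right hy) hz, fun hz => ?_⟩
      have := conj_closure ((X ⊔ Y).inv_mem (Subgroup.mem_sup_right hy)) hz
      simpa [MulAut.conj_apply, mul_assoc] using this
    exact hXY ((hH.to_sup_of_normal_left' hY hle).to_le (sup_le_sup_right (le_closure_conjSet _ _) _))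
  obtain ⟨hKG, hU⟩ := hR A (A ⊔ B) rfl hA2 le_sup_left (sup_le hAG hBG) (hnorm A B hB2 hnp)
  set P := fixS A with hP
  set Q := fixS B with hQdef
  have hPQ : P ⊓ Q = ⊥ := by
    rw [eq_bot_iff, ← hfixG]
    rintro v ⟨hvA, hvB⟩ k hk
    rw [← hKG] at hk
    rw [Subgroup.sup_eq_closure] at hk
    induction hk using Subgroup.closure_induction with
    | mem k hk => rcases hk with hk | hk; exacts [hvA k hk, hvB k hk]
    | one => exact apply_one v
    | mul x y _ _ hx hy => rw [apply_mul, hy, hx]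
    | inv x _ hx => conv_lhs => rw [← hx, inv_apply]
  have hzero : ∀ v ∈ P, v ∈ Q → v = 0 := fun v h1 h3 => by
    have : v ∈ P ⊓ Q := ⟨h1, h3⟩
    rwa [hPQ] at this
  have hdA : ∀ a ∈ A, ∀ v, disp a v ∈ P := fun a ha v b hb =>
    (disp_eq_zero h2).1 (hq A hAG hA2 b hb a ha v)
  have hdB : ∀ b ∈ B, ∀ v, disp b v ∈ Q := fun a ha v b hb =>
    (disp_eq_zero h2).1 (hq B hBG hB2 b hb a ha v)
  -- decomposition
  have hdec : ∀ W1 W2 : AddSubgroup V, (∀ a ∈ A, ∀ v, disp a v ∈ W1) → (∀ b ∈ B, ∀ v, disp b v ∈ W2) →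
      W1 ⊔ W2 = ⊤ := by
    intro W1 W2 hW1 hW2
    rw [eq_top_iff, ← hU, moved, AddSubgroup.closure_le]
    rintro _ ⟨d, hd, -, v, rfl⟩
    have hd' : d ∈ A ⊔ B := closure_conjSet_le le_sup_left hd
    rw [Subgroup.sup_eq_closure] at hd'
    refine disp_mem h2 ?_ hd' v
    rintro k (hk | hk) w
    · exact AddSubgroup.mem_sup_left (hW1 k hk w)
    · exact AddSubgroup.mem_sup_right (hW2 k hk w)
  have hPQtop : P ⊔ Q = ⊤ := hdec P Q hdA hdB
  have hsplit : ∀ v : V, ∃ x ∈ P, ∃ y ∈ Q, x + y = v := fun v =>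
    AddSubgroup.mem_sup.1 (hPQtop ▸ AddSubgroup.mem_top v)
  have hcPQ : Nat.card V = Nat.card P * Nat.card Q := by
    rw [← Nat.card_prod]
    refine (Nat.card_eq_of_bijective (fun p : ↥P × ↥Q => (p.1 : V) + p.2) ⟨?_, ?_⟩).symm
    · rintro ⟨x, y⟩ ⟨x', y'⟩ (h : (x : V) + y = x' + y')
      have h' : (x : V) - x' = y' - y := by
        rw [sub_eq_sub_iff_add_eq_add, h, add_comm]
      have h0 := hzero _ (sub_mem x.2 x'.2) (h' ▸ sub_mem y'.2 y.2)
      have hx : x = x' := Subtype.ext (sub_eq_zero.1 h0)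
      subst hx
      exact Prod.ext rfl (Subtype.ext (add_left_cancel h))
    · intro v
      obtain ⟨x, hx, y, hy, h⟩ := hsplit v
      exact ⟨(⟨x, hx⟩, ⟨y, hy⟩), h⟩
  have hcQ : Nat.card Q = Nat.card P := by rw [hQdef, hB, fixS_conj]
  have hAQ : Nat.card Q ≤ Nat.card A := by
    refine Nat.le_of_mul_le_mul_right ?_ (Nat.card_pos (α := ↥P))
    rw [mul_comm, ← hcPQ]
    exact hVA
  -- nonsingularity
  have hinjA : ∀ a ∈ A, a ≠ 1 → ∀ y ∈ Q, disp a y = 0 → y = 0 := by
    intro a ha ha1 y hy h0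
    set K := Subgroup.zpowers a
    have hKA : K ≤ A := Subgroup.zpowers_le.2 ha
    by_cases hBK : IsPGroup 2 ↥(B ⊔ K)
    · exfalso
      refine ha1 (ext_apply fun v => ?_)
      rw [apply_one]
      have hW : (⊤ : AddSubgroup V) ≤ fixS K := by
        rw [← hdec (fixS K) (fixS K) ?_ ?_]
        · exact sup_le le_rfl le_rfl
        · exact fun b hb w => fixS_anti hKA (hdA b hb w)
        · intro b hb w c hc
          exact (disp_eq_zero h2).1 (hq _ (sup_le hBG (hKA.trans hAG)) hBK c (Subgroup.mem_sup_right hc)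
            b (Subgroup.mem_sup_left hb) w)
      exact hW (AddSubgroup.mem_top v) a (Subgroup.mem_zpowers a)
    · obtain ⟨hK, -⟩ := hR B (B ⊔ K) hmB hB2 le_sup_left (sup_le hBG (hKA.trans hAG))
        (hnorm B K (hA2.to_le hKA) hBK)
      have hmem : y ∈ fixS G := by
        intro k hk
        rw [← hK, Subgroup.sup_eq_closure] at hk
        induction hk using Subgroup.closure_induction with
        | mem k hk =>
          rcases hk with hk | hk
          · exact hy k hk
          · obtain ⟨i, rfl⟩ := hk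
            have hst : a ∈ MulAction.stabilizer (AutE V) y := by
              exact (disp_eq_zero h2).1 h0
            exact zpow_mem hst i
        | one => exact apply_one y
        | mul x z _ _ hx hz => rw [apply_mul, hz, hx]
        | inv x _ hx => conv_lhs => rw [← hx, inv_apply]
      rwa [hfixG] at hmem
  have hsur : ∀ y ∈ Q, y ≠ 0 → ∀ x ∈ P, ∃ a ∈ A, disp a y = x := by
    intro y hy hy0 x hx
    let ev : ↥A → ↥P := fun a => ⟨disp (a : AutE V) y, hdA a a.2 y⟩
    have hinj : Function.Injective ev := by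
      intro a a' h
      have h1 : disp (a : AutE V) y = disp (a' : AutE V) y := congrArg Subtype.val h
      refine Subtype.ext ?_
      by_contra hne
      have h3 : disp ((a : AutE V) * (a' : AutE V)) y = 0 := by
        rw [disp_mul h2, apply_eq h2 (a' : AutE V) y, disp_add, hq A hAG hA2 (a : AutE V) a.2 (a' : AutE V) a'.2, add_zero, h1, h2]
      have hmul : (a : AutE V) * (a' : AutE V) ≠ 1 := by
        intro e
        have e' := mul_self_of_mem h2 hq hAG hA2 a'.2
        exact hne (mul_right_cancel (e.trans e'.symm))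
      exact hy0 (hinjA _ (A.mul_mem a.2 a'.2) hmul y hy h3)
    have hbij := hinj.bijective_of_nat_card_le (by rw [← hcQ]; exact hAQ)
    obtain ⟨a, ha⟩ := hbij.2 ⟨x, hx⟩
    exact ⟨a, a.2, congrArg Subtype.val ha⟩
  have hinjB : ∀ b ∈ B, b ≠ 1 → ∀ x ∈ P, disp b x = 0 → x = 0 := by
    intro b hb hb1 x hx h0
    by_contra hx0
    refine hb1 (ext_apply fun v => ?_)
    rw [apply_one]
    have hbx : (b : AddMonoid.End V) x = x := (disp_eq_zero h2).1 h0
    by_cases hAK : IsPGroup 2 ↥(A ⊔ Subgroup.zpowers b)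
    · have hW : (⊤ : AddSubgroup V) ≤ fixS (Subgroup.zpowers b) := by
        rw [← hdec (fixS (Subgroup.zpowers b)) (fixS (Subgroup.zpowers b)) ?_ ?_]
        · exact sup_le le_rfl le_rfl
        · intro a ha w c hc
          exact (disp_eq_zero h2).1 (hq _ (sup_le hAG (Subgroup.zpowers_le.2 (hBG hb))) hAK c
            (Subgroup.mem_sup_right hc) a (Subgroup.mem_sup_left ha) w)
        · exact fun c hc w => fixS_anti (Subgroup.zpowers_le.2 hb) (hdB c hc w)
      exact hW (AddSubgroup.mem_top v) b (Subgroup.mem_zpowers b)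
    · obtain ⟨hK, -⟩ := hR A (A ⊔ Subgroup.zpowers b) rfl hA2 le_sup_left
        (sup_le hAG (Subgroup.zpowers_le.2 (hBG hb)))
        (hnorm A _ (hB2.to_le (Subgroup.zpowers_le.2 hb)) hAK)
      exfalso
      have hmem : x ∈ fixS G := by
        intro k hk
        rw [← hK, Subgroup.sup_eq_closure] at hk
        induction hk using Subgroup.closure_induction with
        | mem k hk =>
          rcases hk with hk | hk
          · exact hx k hk
          · obtain ⟨i, rfl⟩ := hk
            have hst : b ∈ MulAction.stabilizer (AutE V) x := hbx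
            exact zpow_mem hst i
        | one => exact apply_one x
        | mul y z _ _ hy hz => rw [apply_mul, hz, hy]
        | inv y _ hy => conv_lhs => rw [← hy, inv_apply]
      rw [hfixG] at hmem
      exact hx0 hmem
  -- the two involutions
  have hB1 : B ≠ ⊥ := by
    rw [← Subgroup.one_lt_card_iff_ne_bot, hcB, Subgroup.one_lt_card_iff_ne_bot]; exact hA1
  obtain ⟨b, hb, hb1⟩ : ∃ b ∈ B, b ≠ 1 := B.ne_bot_iff_exists_ne_one.1 hB1 |>.elim
    (fun b hb => ⟨(b : AutE V), b.2, fun e => hb (Subtype.ext e)⟩)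
  have hP0 : ∃ x ∈ P, x ≠ 0 := by
    by_contra hc
    push_neg at hc
    have hP1 : P = ⊥ := eq_bot_iff.2 fun x hx => hc x hx
    have hQ1 : Nat.card Q = 1 := by rw [hcQ, hP1]; exact AddSubgroup.card_bot
    refine hb1 (ext_apply fun v => ?_)
    have hV : Nat.card V = 1 := by rw [hcPQ, hQ1, hP1, AddSubgroup.card_bot]
    haveI := (Nat.card_eq_one_iff_unique.1 hV).1
    exact Subsingleton.elim _ _
  obtain ⟨x, hx, hx0⟩ := hP0
  set y := disp b x with hy
  have hyQ : y ∈ Q := hdB b hb x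
  have hy0 : y ≠ 0 := fun h => hx0 (hinjB b hb hb1 x hx h)
  obtain ⟨a, ha, hay⟩ := hsur y hyQ hy0 x hx
  have hbb := mul_self_of_mem h2 hq hBG hB2 hb
  have haa := mul_self_of_mem h2 hq hAG hA2 ha
  set A1 := A.map (MulAut.conj b).toMonoidHom with hA1def
  set B1 := B.map (MulAut.conj a).toMonoidHom with hB1def
  have hbx : (b : AddMonoid.End V) x = x + y := apply_eq h2 b x
  have hayz : (a : AddMonoid.End V) y = x + y := by rw [apply_eq h2 a y, hay, add_comm]
  have hA1G : A1 ≤ G := by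
    rintro _ ⟨c, hc, rfl⟩
    exact G.mul_mem (G.mul_mem (hBG hb) (hAG hc)) (G.inv_mem (hBG hb))
  have hB1G : B1 ≤ G := by
    rintro _ ⟨c, hc, rfl⟩
    exact G.mul_mem (G.mul_mem (hAG ha) (hBG hc)) (G.inv_mem (hAG ha))
  have hmA1 : Nat.card A1 * Nat.card (fixS A1) = Nat.card A * Nat.card (fixS A) := by
    rw [hA1def, fixS_conj, ← Nat.card_congr (A.equivMapOfInjective _ (MulAut.conj b).injective).toEquiv]
  have hpair : IsPGroup 2 ↥(A1 ⊔ B1) := by
    by_contra hne
    obtain ⟨hK, -⟩ := hR A1 (A1 ⊔ B1) hmA1 (hA2.map _) le_sup_left (sup_le hA1G hB1G)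
      (hnorm A1 B1 (hB2.map _) hne)
    have hz : x + y ∈ fixS G := by
      intro k hk
      rw [← hK, Subgroup.sup_eq_closure] at hk
      induction hk using Subgroup.closure_induction with
      | mem k hk =>
        rcases hk with ⟨c, hc, rfl⟩ | ⟨c, hc, rfl⟩
        · show ((b * c * b⁻¹ : AutE V) : AddMonoid.End V) (x + y) = x + y
          rw [← hbx, apply_mul, apply_mul, inv_apply, hx c hc]
        · show ((a * c * a⁻¹ : AutE V) : AddMonoid.End V) (x + y) = x + y
          rw [← hayz, apply_mul, apply_mul, inv_apply, hyQ c hc]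
      | one => exact apply_one _
      | mul u w _ _ hu hw => rw [apply_mul, hw, hu]
      | inv u _ hu => conv_lhs => rw [← hu, inv_apply]
    rw [hfixG] at hz
    have hxy : x + y = 0 := hz
    exact hx0 (hzero x hx (by rw [eq_neg_of_add_eq_zero_left hxy]; exact neg_mem hyQ))
  -- the images of `Q` under `a` and of `P` under `b` coincide
  let aQ : AddSubgroup V := Q.map ((a : AutE V) : AddMonoid.End V)
  let bP : AddSubgroup V := P.map ((b : AutE V) : AddMonoid.End V)
  set Q' := AddSubgroup.closure {u | ∃ c ∈ B, ∃ w, u = disp c w} with hQ'def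
  have hQ'Q : Q' ≤ Q := by
    rw [hQ'def, AddSubgroup.closure_le]; rintro _ ⟨c, hc, w, rfl⟩; exact hdB c hc w
  have hQQ' : Q ≤ Q' := by
    intro v hv
    have htop := hdec P Q' hdA (fun c hc w => AddSubgroup.subset_closure ⟨c, hc, w, rfl⟩)
    obtain ⟨p, hp, q, hq', hpq⟩ := AddSubgroup.mem_sup.1 (htop ▸ AddSubgroup.mem_top v)
    have h0 : p = 0 := hzero p hp (by rw [eq_sub_of_add_eq hpq]; exact sub_mem hv (hQ'Q hq'))
    rw [← hpq, h0, zero_add]; exact hq'
  have hsub : aQ ≤ bP := by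
    rintro _ ⟨q, hq1, rfl⟩
    have key : Q' ≤ (fixS A1).comap ((a : AutE V) : AddMonoid.End V) := by
      rw [hQ'def, AddSubgroup.closure_le]
      rintro _ ⟨c, hc, w, rfl⟩
      intro k hk
      show ((k : AutE V) : AddMonoid.End V) (((a : AutE V) : AddMonoid.End V) (disp c w)) =
        ((a : AutE V) : AddMonoid.End V) (disp c w)
      rw [conj_disp a c w]
      exact (disp_eq_zero h2).1 (hq _ (sup_le hA1G hB1G) hpair k (Subgroup.mem_sup_left hk)
        _ (Subgroup.mem_sup_right ⟨c, hc, rfl⟩) _)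
    refine ⟨((b⁻¹ : AutE V) : AddMonoid.End V) ((a : AddMonoid.End V) q), ?_, apply_inv b _⟩
    intro c hc
    have h : ((b * c * b⁻¹ : AutE V) : AddMonoid.End V) ((a : AddMonoid.End V) q) =
        (a : AddMonoid.End V) q := key (hQQ' hq1) (b * c * b⁻¹) ⟨c, hc, rfl⟩
    rw [apply_mul, apply_mul] at h
    have h' := congrArg ((b⁻¹ : AutE V) : AddMonoid.End V) h
    rwa [inv_apply] at h'
  have hinjmap : ∀ g : AutE V, Function.Injective ⇑(g : AddMonoid.End V) :=
    fun g => Function.LeftInverse.injective (inv_apply g)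
  have heqab : aQ = bP := by
    refine AddSubgroup.ext_iff.2 fun v => ⟨fun h => hsub h, fun h => ?_⟩
    have hc1 : Nat.card bP ≤ Nat.card aQ := by
      rw [← Nat.card_congr (P.equivMapOfInjective _ (hinjmap b)).toEquiv,
        ← Nat.card_congr (Q.equivMapOfInjective _ (hinjmap a)).toEquiv, hcQ]
    rw [AddSubgroup.eq_of_le_of_card_ge hsub hc1]; exact h
  have hab1 : ∀ v ∈ Q, disp b (disp a v) = v := by
    intro v hv
    have h : (a : AddMonoid.End V) v ∈ bP := hsub ⟨v, hv, rfl⟩
    obtain ⟨p, hp, hpv'⟩ := h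
    have hpv : (b : AddMonoid.End V) p = (a : AddMonoid.End V) v := hpv'
    rw [apply_eq h2 a v] at hpv
    rw [show ((b : AutE V) : AddMonoid.End V) p = p + disp b p from apply_eq h2 b p] at hpv
    have hpe : p = disp a v := by
      rw [← sub_eq_zero]
      refine hzero _ (sub_mem hp (hdA a ha v)) ?_
      rw [show p - disp a v = v - disp b p by
        rw [sub_eq_sub_iff_add_eq_add]; exact hpv]
      exact sub_mem hv (hdB b hb p)
    rw [hpe, add_comm (disp a v)] at hpv
    exact (add_right_cancel hpv)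
  have hba1 : ∀ p ∈ P, disp a (disp b p) = p := by
    intro p hp
    have h : (b : AddMonoid.End V) p ∈ aQ := heqab ▸ (⟨p, hp, rfl⟩ : _ ∈ bP)
    obtain ⟨v, hv, hpv'⟩ := h
    have hpv : (a : AddMonoid.End V) v = (b : AddMonoid.End V) p := hpv'
    rw [apply_eq h2 b p] at hpv
    rw [show ((a : AutE V) : AddMonoid.End V) v = v + disp a v from apply_eq h2 a v] at hpv
    have hve : v = disp b p := by
      rw [← sub_eq_zero]
      refine hzero _ ?_ (sub_mem hv (hdB b hb p))
      rw [show v - disp b p = p - disp a v by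
        rw [sub_eq_sub_iff_add_eq_add]; exact hpv]
      exact sub_mem hp (hdA a ha v)
    rw [hve, add_comm (disp b p)] at hpv
    exact (add_right_cancel hpv)
  have hbraid : a * b * a = b * a * b := by
    refine ext_apply fun v => ?_
    obtain ⟨p, hp, q, hq1, rfl⟩ := hsplit v
    have hap : (a : AddMonoid.End V) p = p := hp a ha
    have hbq : (b : AddMonoid.End V) q = q := hq1 b hb
    have hN : (a : AddMonoid.End V) (disp a q) = disp a q := hdA a ha q a ha
    have hM : (b : AddMonoid.End V) (disp b p) = disp b p := hdB b hb p b hb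
    have e1 : (a : AddMonoid.End V) ((b : AddMonoid.End V) p) = disp b p := by
      rw [apply_eq h2 b p, map_add, hap, apply_eq h2 a (disp b p), hba1 p hp, add_comm (disp b p) p,
        ← add_assoc, h2, zero_add]
    have e2 : (b : AddMonoid.End V) ((a : AddMonoid.End V) q) = disp a q := by
      rw [apply_eq h2 a q, map_add, hbq, apply_eq h2 b (disp a q), hab1 q hq1, add_comm (disp a q) q,
        ← add_assoc, h2, zero_add]
    simp only [apply_mul, map_add, hap, hbq, e1, e2, hN, hM]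
  have h3 : (a * b) ^ 3 = 1 := by
    calc (a * b) ^ 3 = (a * b * a) * (b * a * b) := by rw [pow_succ, pow_two]; group
      _ = (a * b * a) * (a * b * a) := by rw [hbraid]
      _ = a * b * (a * a) * (b * a) := by group
      _ = a * (b * b) * a := by rw [haa]; group
      _ = 1 := by rw [hbb, mul_one, haa]
  have hne1 : a * b ≠ 1 := by
    intro h
    have h' := congrArg (fun k : AutE V => (k : AddMonoid.End V) x) h
    simp only [apply_mul, apply_one, hbx, map_add, hx a ha, hayz] at h'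
    rw [← add_assoc, h2, zero_add] at h'
    exact hy0 ((hzero x hx (h' ▸ hyQ)) ▸ (by rw [hy, (hzero x hx (h' ▸ hyQ))]; simp [disp]))
  exact hcon ⟨a, hAG ha, b, hBG hb, haa, hbb, (orderOf_eq_prime h3 hne1).symm.dvd⟩

theorem hasThree {V : Type u} [AddCommGroup V] [Finite V] (h2 : ∀ v : V, v + v = 0) {G : Subgroup (AutE V)}
    (hq : IsQuad G) (hno : NoTwo G) (hoff : HasOffender G) : HasThree G :=
  hasThree_aux _ V G h2 le_rfl hq hno hoff

end Cfsg.Agent.Lib.QuadraticTwo
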